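import Mathlib
import Cfsg.Agent.Lib.ChDeg.ThreeDeg
import Cfsg.Agent.Lib.McKay.Core
import Cfsg.Agent.Lib.Glaub.Cong
import Cfsg.Agent.Lib.Transfer.Abelian
import Cfsg.Agent.Lib.Transfer.Tate

/-! The sum of the squares of the `p'`-degrees and normal complements of the Sylow normalizer. -/

set_option autoImplicit false
set_option linter.unusedSectionVars false

namespace CfsgLib.OddSq

open Cfsg CfsgLib.Char CfsgLib.ChDeg CfsgLib.Tech Subgroup

theorem fib {α β : Type*} [DecidableEq β] (T : Finset α) (R : Finset β) (f : α → β)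
    (hf : ∀ a ∈ T, f a ∈ R) (d : α → ℕ) (D : β → ℕ)
    (h : ∀ b ∈ R, ∑ a ∈ T with f a = b, d a ≤ D b) :
    ∑ a ∈ T, d a ^ 2 ≤ ∑ b ∈ R, D b ^ 2 ∧
      (∑ a ∈ T, d a ^ 2 = ∑ b ∈ R, D b ^ 2 → ∀ a ∈ T, 0 < d a → D (f a) ≤ d a) := by
  have h1 : ∀ b ∈ R, ∀ a ∈ T.filter (fun a => f a = b), d a ^ 2 ≤ d a * D b := fun b hb a ha => by
    rw [sq]
    exact Nat.mul_le_mul_left _ ((Finset.single_le_sum (fun _ _ => Nat.zero_le _) ha).trans (h b hb))
  have h2 : ∀ b ∈ R, ∑ a ∈ T with f a = b, d a * D b ≤ D b ^ 2 := fun b hb => by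
    rw [← Finset.sum_mul, sq]
    exact Nat.mul_le_mul_right _ (h b hb)
  have h3 : ∀ b ∈ R, ∑ a ∈ T with f a = b, d a ^ 2 ≤ D b ^ 2 := fun b hb =>
    (Finset.sum_le_sum (h1 b hb)).trans (h2 b hb)
  rw [← Finset.sum_fiberwise_of_maps_to hf]
  refine ⟨Finset.sum_le_sum h3, fun e a ha h0 => ?_⟩
  by_contra hn
  refine (Finset.sum_lt_sum h3 ⟨f a, hf a ha, ?_⟩).ne e
  refine (Finset.sum_lt_sum (h1 _ (hf a ha)) ⟨a, Finset.mem_filter.2 ⟨ha, rfl⟩, ?_⟩).trans_le
    (h2 _ (hf a ha))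
  rw [sq]
  exact Nat.mul_lt_mul_of_pos_left (not_le.1 hn) h0

variable {G : Type*} [Group G] [Finite G] {p : ℕ} [hp : Fact p.Prime]

theorem npc_of (S : Sylow p G) (hN : normalizer ((S : Subgroup G) : Set G) ≤ S) (D : Subgroup G)
    [D.Normal] (h1 : ⁅(S : Subgroup G), (S : Subgroup G)⁆ ≤ D)
    (h2 : D ⊓ S ≤ ⁅(S : Subgroup G), (S : Subgroup G)⁆) : pResidual p G ⊓ S = ⊥ := by
  let π := QuotientGroup.mk' D
  have hc : ∀ a ∈ (S : Subgroup G), ∀ b ∈ (S : Subgroup G), π a * π b = π b * π a := fun a ha b hb => by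
    rw [← commutatorElement_eq_one_iff_mul_comm, ← map_commutatorElement]
    exact (QuotientGroup.eq_one_iff _).2 (h1 (commutator_mem_commutator ha hb))
  have h3 : commutator G ⊓ S ≤ ⁅(S : Subgroup G), (S : Subgroup G)⁆ := by
    rw [← Transfer.focalSubgroup_eq_of_hall _ S.card_coprime_index, Transfer.focalSubgroup_le_iff]
    intro x hx g hg
    obtain ⟨n, hn, k, hk, rfl⟩ := Transfer.exists_normalizer_mul_of_le S
      (K := (centralizer {π x}).comap π) (g := g)
      (fun s hs => mem_comap.2 (mem_centralizer_singleton_iff.2 (hc s hs x hx)))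
      (cj_le_iff.2 fun s hs => mem_comap.2 (mem_centralizer_singleton_iff.2 (by
        have := hc s hs _ hg
        simp only [map_mul, map_inv, inv_inv] at this ⊢
        calc _ = (π g)⁻¹ * (π s * (π g * π x * (π g)⁻¹)) * π g := by group
          _ = _ := by rw [this]; group)))
    refine h2 ⟨(QuotientGroup.eq_one_iff _).1 ?_, (S : Subgroup G).mul_mem ((S : Subgroup G).inv_mem hx) hg⟩
    have e1 := mem_centralizer_singleton_iff.1 (mem_comap.1 hk)
    have e2 := hc n (hN hn) x hx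
    change π _ = 1
    simp only [map_mul, map_inv, mul_inv_rev]
    calc _ = (π x)⁻¹ * (π n * (π k * π x) * (π k)⁻¹ * (π n)⁻¹) := by group
      _ = (π x)⁻¹ * (π n * π x) * (π n)⁻¹ := by rw [e1]; group
      _ = 1 := by rw [e2]; group
  have h4 := Transfer.tate_of_commutator_inf_le S le_rfl h3
  have h5 : pResidual p (S : Subgroup G) = ⊥ := by
    refine eq_bot_iff.2 ((closure_le _).2 fun g hg => ?_)
    obtain ⟨k, hk⟩ := IsPGroup.iff_orderOf.1 S.isPGroup' g
    have hg' : (orderOf g).Coprime p := hg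
    rw [hk] at hg'
    rcases k with _ | k
    · exact mem_bot.2 (orderOf_eq_one_iff.1 (by simpa using hk))
    · exact absurd (Nat.Coprime.eq_one_of_dvd hg'.symm (dvd_pow_self p k.succ_ne_zero)) hp.out.ne_one
  rw [inf_comm, h4, h5, Subgroup.map_bot]

theorem compl_of (P : Sylow p G)
    (h1 : normalClosure ((⁅(P : Subgroup G), (P : Subgroup G)⁆ : Subgroup G) : Set G) ⊓
      normalizer ((P : Subgroup G) : Set G) ≤ ⁅(P : Subgroup G), (P : Subgroup G)⁆)
    (h2 : normalClosure ((P : Subgroup G) : Set G) ⊓ normalizer ((P : Subgroup G) : Set G) ≤ P) :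
    ∃ K : Subgroup G, K.Normal ∧ K ⊓ normalizer ((P : Subgroup G) : Set G) = ⊥ ∧
      K ⊔ normalizer ((P : Subgroup G) : Set G) = ⊤ := by
  set L := normalClosure ((P : Subgroup G) : Set G) with hL
  have hPL : (P : Subgroup G) ≤ L := le_normalClosure
  let S := P.subtype hPL
  have hS : (S : Subgroup L) = (P : Subgroup G).subgroupOf L := rfl
  have hm : (⁅(S : Subgroup L), (S : Subgroup L)⁆).map L.subtype =
      ⁅(P : Subgroup G), (P : Subgroup G)⁆ := by
    rw [map_commutator, hS, subgroupOf_map_subtype, inf_of_le_left hPL]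
  have hm' : ∀ x : L, x ∈ ⁅(S : Subgroup L), (S : Subgroup L)⁆ ↔
      (x : G) ∈ ⁅(P : Subgroup G), (P : Subgroup G)⁆ := fun x => by
    rw [← hm]
    exact (mem_map_iff_mem L.subtype_injective).symm
  have h3 := npc_of S (fun x hx => by
      rw [hS, ← subgroupOf_normalizer_eq hPL] at hx
      exact h2 ⟨x.2, hx⟩)
    ((normalClosure ((⁅(P : Subgroup G), (P : Subgroup G)⁆ : Subgroup G) : Set G)).subgroupOf L)
    (fun x hx => le_normalClosure ((hm' x).1 hx))
    (fun x hx => (hm' x).2 (h1 ⟨hx.1, le_normalizer hx.2⟩))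
  have := Transfer.pResidual_characteristic p L
  refine ⟨(pResidual p L).map L.subtype, ConjAct.normal_of_characteristic_of_normal, eq_bot_iff.2 ?_, ?_⟩
  · rintro _ ⟨⟨x, hx, rfl⟩, hx'⟩
    have : x ∈ pResidual p L ⊓ S := ⟨hx, h2 ⟨x.2, hx'⟩⟩
    rw [h3, mem_bot] at this
    simp [this]
  · have h4 := (Transfer.isComplement'_pResidual
      ((Transfer.hasNormalPComplement_iff_inf_eq_bot S).2 h3) S).sup_eq_top
    have h5 : L ≤ (pResidual p L).map L.subtype ⊔ P := by
      have := congrArg (map L.subtype) h4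
      rw [Subgroup.map_sup, hS, subgroupOf_map_subtype, inf_of_le_left hPL, ← MonoidHom.range_eq_map,
        range_subtype] at this
      exact this.ge
    rw [eq_top_iff, ← Sylow.normalizer_sup_eq_top' P hPL]
    exact sup_le le_sup_right (h5.trans (sup_le_sup_left le_normalizer _))

theorem le_cker_of_fpf {H K : Subgroup G} [K.Normal] (hH : IsPGroup p H)
    (hC : K ⊓ centralizer (H : Set G) = ⊥) {χ : G → ℂ} (hχ : IsIrrCharacter G χ)
    (hd : ¬ p ∣ charDegree χ) : K ≤ cker χ := by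
  classical
  have := Fintype.ofFinite G
  have hc := isCharacter_of_isIrr hχ
  let : MulAction H K := MulAction.compHom K ((MulAut.conjNormal (G := G) (H := K)).comp H.subtype)
  have hs : ∀ (a : H) (x : K), ((a • x : K) : G) = a * x * (a : G)⁻¹ := fun a x => rfl
  have h1 := Glaub.congP_sum_of_fixed hH (X := K) (Y := Unit) (fun _ => 1) (fun _ _ _ => rfl)
    (fun x => ⟨fun ⟨_, e⟩ a => Subtype.ext (by rw [hs, ← e]; simp), fun k => ⟨(), Subtype.ext
      (Eq.symm (mem_bot.1 (hC ▸ mem_inf.2 ⟨x.2, fun a ha =>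
        mul_inv_eq_iff_eq_mul.1 (congrArg Subtype.val (k ⟨a, ha⟩))⟩)))⟩⟩)
    (fun r => χ r) (fun r => isIntegral_char hc _)
    fun a r => by rw [hs]; exact isClassFunction_of_isCharacter hc _ _
  have h2 : classInner (fun n : K => χ n) (fun _ => 1) ≠ 0 := by
    rw [classInner_one_right]
    refine mul_ne_zero (inv_ne_zero (Nat.cast_ne_zero.2 Nat.card_pos.ne')) fun e => ?_
    rw [Fintype.sum_unique (ι := Unit)] at h1
    have h3 : Glaub.CongP p ((0 : ℕ) : ℂ) (charDegree χ : ℂ) := by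
      rw [Nat.cast_zero, ← e, deg_cast hc]
      exact h1
    rw [Glaub.congP_nat_iff hp.out.ne_zero, Nat.cast_zero, eq_comm, ZMod.natCast_eq_zero_iff] at h3
    exact hd h3
  have h4 := clifford_invariant K hχ isIrr_one h2 fun _ => rfl
  exact fun r hr => (mem_cker hc).2 ((congrFun h4 ⟨r, hr⟩).trans (congrFun h4 1).symm)

theorem index_eq_mul {K X : Subgroup G} [K.Normal] (h : K ⊓ X = ⊥) :
    K.index = Nat.card X * (K ⊔ X).index := by
  rw [← relIndex_mul_index (le_sup_left : K ≤ K ⊔ X), relIndex_sup_left, relIndex,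
    subgroupOf_eq_bot.2 (disjoint_iff.2 h), index_bot]

/-- The sum of the squares of the `p'`-degrees. -/
noncomputable def F (p : ℕ) (G : Type*) [Group G] [Finite G] : ℕ :=
  ∑ χ ∈ Finset.univ.filter (fun χ : IrrCharacter G => ¬ p ∣ charDegree (χ : G → ℂ)),
    charDegree (χ : G → ℂ) ^ 2

theorem le_of_compl (P : Sylow p G) {K : Subgroup G} [K.Normal]
    (h1 : K ⊓ normalizer ((P : Subgroup G) : Set G) = ⊥)
    (h2 : K ⊔ normalizer ((P : Subgroup G) : Set G) = ⊤) :
    Nat.card (⁅(P : Subgroup G), (P : Subgroup G)⁆ : Subgroup G) * F p G ≤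
      Nat.card (normalizer ((P : Subgroup G) : Set G)) := by
  classical
  let π := QuotientGroup.mk' K
  have hn : ((P : Subgroup G).map π).Normal := by
    rw [← normalizer_eq_top_iff, eq_top_iff, ← map_top_of_surjective π (QuotientGroup.mk'_surjective K),
      ← h2, Subgroup.map_sup, QuotientGroup.map_mk'_self, bot_sup_eq]
    exact le_normalizer_map π
  have he : (⁅(P : Subgroup G).map π, (P : Subgroup G).map π⁆).comap π =
      K ⊔ ⁅(P : Subgroup G), (P : Subgroup G)⁆ := by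
    rw [← map_commutator, comap_map_eq, QuotientGroup.ker_mk', sup_comm]
  have hM : (K ⊔ ⁅(P : Subgroup G), (P : Subgroup G)⁆).Normal := he ▸ inferInstance
  have i1 := index_eq_mul h1
  have i2 := index_eq_mul (K := K) (X := ⁅(P : Subgroup G), (P : Subgroup G)⁆)
    (eq_bot_iff.2 ((inf_le_inf_left K ((commutator_le.2 fun a ha b hb => (P : Subgroup G).mul_mem ((P : Subgroup G).mul_mem
      ((P : Subgroup G).mul_mem ha hb) ((P : Subgroup G).inv_mem ha)) ((P : Subgroup G).inv_mem hb)).trans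
      le_normalizer)).trans h1.le))
  rw [h2, index_top, mul_one] at i1
  rw [← i1, i2, ← sum_deg_sq_filter_cker]
  refine Nat.mul_le_mul_left _ (Finset.sum_le_sum_of_subset fun χ hχ => ?_)
  rw [Finset.mem_filter] at hχ ⊢
  have hc := isCharacter_of_isIrr χ.2
  have k1 := le_cker_of_fpf P.isPGroup' (eq_bot_iff.2 ((inf_le_inf_left K
    (centralizer_le_normalizer _)).trans h1.le)) χ.2 hχ.2
  refine ⟨hχ.1, he.ge.trans fun x hx => (mem_cker_defl hc k1).1 ?_⟩
  exact McKay.commutator_le_cker_of_not_dvd _ (P.isPGroup'.map π) (isIrr_defl χ.2 k1)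
    (by rw [deg_defl hc k1]; exact hχ.2) hx

theorem main (P : Sylow p G) :
    Nat.card (normalizer ((P : Subgroup G) : Set G)) ≤
      Nat.card (⁅(P : Subgroup G), (P : Subgroup G)⁆ : Subgroup G) * F p G ∧
    (Nat.card (normalizer ((P : Subgroup G) : Set G)) =
      Nat.card (⁅(P : Subgroup G), (P : Subgroup G)⁆ : Subgroup G) * F p G →
    ∃ K : Subgroup G, K.Normal ∧ K ⊓ normalizer ((P : Subgroup G) : Set G) = ⊥ ∧
      K ⊔ normalizer ((P : Subgroup G) : Set G) = ⊤) := by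
  classical
  have := Fintype.ofFinite G
  set N := normalizer ((P : Subgroup G) : Set G) with hN
  have PN : (P : Subgroup G) ≤ N := le_normalizer
  set Q := (P : Subgroup G).subgroupOf N with hQ
  have : Q.Normal := normal_in_normalizer
  have hm : (⁅Q, Q⁆).map N.subtype = ⁅(P : Subgroup G), (P : Subgroup G)⁆ := by
    rw [map_commutator, hQ, subgroupOf_map_subtype, inf_of_le_left PN]
  have hex : ∀ ψ : IrrCharacter N, ∃ χ : IrrCharacter G, ⁅Q, Q⁆ ≤ cker (ψ : N → ℂ) →
      ¬ p ∣ charDegree (χ : G → ℂ) ∧ classInner (fun n : N => (χ : G → ℂ) n) ψ ≠ 0 := fun ψ => by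
    by_cases h : ⁅Q, Q⁆ ≤ cker (ψ : N → ℂ)
    swap
    · exact ⟨irrOne G, fun h' => absurd h' h⟩
    by_contra hn
    push Not at hn
    have hc := isCharacter_of_isIrr ψ.2
    have h1 := dvd_deg_of_forall (d := p) (isCharacter_indFun N hc) fun χ hχ h0 => by
      by_contra hd
      refine h0 ?_
      rw [classInner_indFun_left N _ (isClassFunction_of_isIrr hχ)]
      exact classInner_eq_zero_symm ((hn ⟨χ, hχ⟩).2 hd)
    rw [deg_ind N hc] at h1
    rcases (Nat.Prime.dvd_mul hp.out).1 h1 with h2 | h2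
    · exact P.not_dvd_index (h2.trans (index_dvd_of_le PN))
    · exact P.not_dvd_index ((h2.trans (deg_dvd_index_of_commutator_le_cker ψ.2 Q h)).trans
        (relIndex_dvd_index_of_le PN))
  choose f hf using hex
  obtain ⟨k1, k2⟩ := fib (Finset.univ.filter fun ψ : IrrCharacter N => ⁅Q, Q⁆ ≤ cker (ψ : N → ℂ))
    (Finset.univ.filter fun χ : IrrCharacter G => ¬ p ∣ charDegree (χ : G → ℂ)) f
    (fun ψ hψ => Finset.mem_filter.2 ⟨Finset.mem_univ _, (hf ψ (Finset.mem_filter.1 hψ).2).1⟩)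
    (fun ψ => charDegree (ψ : N → ℂ)) (fun χ => charDegree (χ : G → ℂ)) fun χ _ => by
      obtain ⟨n, n1, n2⟩ := exists_deg_eq_sum (isCharacter_restrict N (isCharacter_of_isIrr χ.2))
      rw [deg_res] at n2
      rw [n2]
      refine le_trans (Finset.sum_le_sum fun ψ hψ => ?_)
        (Finset.sum_le_sum_of_subset (Finset.subset_univ _))
      obtain ⟨a1, rfl⟩ := Finset.mem_filter.1 hψ
      have a2 := (hf ψ (Finset.mem_filter.1 a1).2).2
      rw [n1] at a2
      exact Nat.le_mul_of_pos_left _ (Nat.pos_of_ne_zero fun e => a2 (by rw [e, Nat.cast_zero]))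
  rw [sum_deg_sq_filter_cker] at k1 k2
  have c1 : Nat.card N = Nat.card (⁅(P : Subgroup G), (P : Subgroup G)⁆ : Subgroup G) *
      (⁅Q, Q⁆).index := by
    rw [← hm, card_map_of_injective N.subtype_injective, card_mul_index]
  refine ⟨c1 ▸ Nat.mul_le_mul_left _ k1, fun e => ?_⟩
  have k3 := k2 (Nat.eq_of_mul_eq_mul_left Nat.card_pos (c1.symm.trans e))
  have key : ∀ (X : Subgroup G) (Y : Subgroup N) [Y.Normal], ⁅Q, Q⁆ ≤ Y → Y.map N.subtype = X →
      normalClosure (X : Set G) ⊓ N ≤ X := fun X Y _ hY hX g hg => by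
    by_contra hn
    obtain ⟨ψ, hψ, a1, a2⟩ := exists_irr_le_cker_not_mem Y (g := ⟨g, hg.2⟩)
      fun h => hn (hX ▸ mem_map_of_mem N.subtype h)
    have hc := isCharacter_of_isIrr (f ⟨ψ, hψ⟩).2
    have a3 := eq_of_inner_ne_zero_of_deg_le (isCharacter_restrict N hc) hψ
      (hf ⟨ψ, hψ⟩ (hY.trans a1)).2 (by
        rw [deg_res]
        exact k3 ⟨ψ, hψ⟩ (Finset.mem_filter.2 ⟨Finset.mem_univ _, hY.trans a1⟩) (deg_pos hψ))
    rw [← a3, cker_res N hc] at a1 a2
    have : (cker ((f ⟨ψ, hψ⟩ : IrrCharacter G) : G → ℂ)).Normal := inferInstance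
    refine a2 (normalClosure_le_normal (N := cker _) ?_ hg.1)
    rw [← hX]
    rintro _ ⟨y, hy, rfl⟩
    exact a1 hy
  exact compl_of P (key _ _ le_rfl hm) (key _ Q (commutator_le_left Q Q)
    (by rw [hQ, subgroupOf_map_subtype, inf_of_le_left PN]))

end CfsgLib.OddSq
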